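import Mathlib

/-!
Ping-pong with conjugates of a one-parameter torus: a non-trivial word of the free group, evaluated
at conjugates `g i * diag(t ^ m) * (g i)⁻¹` in general position, is not a scalar matrix for a suitable
value of `t`, as soon as the field is large compared with the length of the word.
-/

set_option autoImplicit false

namespace H63.Law

open Polynomial Matrix

variable {F : Type*} [Field F] {n : Type*} [Fintype n] [DecidableEq n]

/-- all entries have degree at most `d` -/
def DegLE (M : Matrix n n F[X]) (d : ℕ) : Prop := ∀ i j, (M i j).natDegree ≤ d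

/-- the matrix of coefficients of `X ^ d` -/
noncomputable def topc (M : Matrix n n F[X]) (d : ℕ) : Matrix n n F :=
  Matrix.of fun i j => (M i j).coeff d

omit [DecidableEq n] in
theorem DegLE.mul {M N : Matrix n n F[X]} {d e : ℕ} (hM : DegLE M d) (hN : DegLE N e) :
    DegLE (M * N) (d + e) := by
  intro i j
  rw [Matrix.mul_apply]
  refine natDegree_sum_le_of_forall_le _ _ fun k _ => ?_
  exact natDegree_mul_le.trans (add_le_add (hM i k) (hN k j))

omit [DecidableEq n] in
theorem topc_mul {M N : Matrix n n F[X]} {d e : ℕ} (hM : DegLE M d) (hN : DegLE N e) :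
    topc (M * N) (d + e) = topc M d * topc N e := by
  ext i j
  simp only [topc, Matrix.of_apply, Matrix.mul_apply, finsetSum_coeff]
  refine Finset.sum_congr rfl fun k _ => ?_
  exact coeff_mul_add_eq_of_natDegree_le (hM i k) (hN k j)

omit [Fintype n] [DecidableEq n] in
theorem degLE_C (A : Matrix n n F) : DegLE (A.map C) 0 := by
  intro i j; simp

omit [Fintype n] [DecidableEq n] in
theorem topc_C (A : Matrix n n F) : topc (A.map C) 0 = A := by
  ext i j; simp [topc]

omit [Fintype n] in
theorem degLE_diag (m : n → ℕ) (D : ℕ) (hm : ∀ j, m j ≤ D) :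
    DegLE (diagonal fun j => (X : F[X]) ^ m j) D := by
  intro i j
  by_cases h : i = j
  · subst h; simp [hm]
  · simp [diagonal_apply_ne _ h]

omit [Fintype n] in
theorem topc_diag (m : n → ℕ) (D : ℕ) (j0 : n) (h0 : m j0 = D) (hm : ∀ j, j ≠ j0 → m j ≠ D) :
    topc (diagonal fun j => (X : F[X]) ^ m j) D = single j0 j0 1 := by
  ext i j
  by_cases h : i = j
  · subst h
    by_cases h' : i = j0
    · subst h'; simp [topc, h0]
    · simp [topc, coeff_X_pow, (hm i h').symm, Ne.symm h']
  · have : ¬ (j0 = i ∧ j0 = j) := fun hh => h (hh.1.symm.trans hh.2)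
    simp [topc, diagonal_apply_ne _ h, this]

theorem degLE_prod {ι : Type*} (A : ι → Matrix n n F[X]) (D : ℕ) (hA : ∀ x, DegLE (A x) D)
    (L : List ι) : DegLE (L.map A).prod (D * L.length) ∧
      topc (L.map A).prod (D * L.length) = (L.map fun x => topc (A x) D).prod := by
  induction L with
  | nil =>
    have h1 : (1 : Matrix n n F[X]) = (1 : Matrix n n F).map C := by
      rw [Matrix.map_one] <;> simp
    simp only [List.map_nil, List.prod_nil, List.length_nil, mul_zero]
    rw [h1]; exact ⟨degLE_C _, topc_C _⟩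
  | cons x L ih =>
    simp only [List.map_cons, List.prod_cons, List.length_cons]
    have e : D * (L.length + 1) = D + D * L.length := by ring
    rw [e]
    exact ⟨(hA x).mul ih.1, by rw [topc_mul (hA x) ih.1, ih.2]⟩

/-- the product of rank one projections in general position along a reduced word -/
theorem prod_proj_mulVec (g g' : ℕ → Matrix n n F) (j : Bool → n) (K : ℕ)
    (hgg : ∀ i, g' i * g i = 1)
    (hg : ∀ i k, i ≤ K → k ≤ K → i ≠ k → ∀ a b, (g' i * g k) (j a) (j b) ≠ 0)
    (L : List (ℕ × Bool)) (hL : FreeGroup.IsReduced L) (hK : ∀ x ∈ L, x.1 < K) :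
    ∃ c : F, c ≠ 0 ∧
      (L.map fun x => g x.1 * single (j x.2) (j x.2) 1 * g' x.1).prod * g K * single (j true) (j true) 1
        = c • (g (L.headD (K, true)).1 * single (j (L.headD (K, true)).2) (j true) 1) := by
  induction L with
  | nil => exact ⟨1, one_ne_zero, by simp⟩
  | cons x L ih =>
    have hL' : FreeGroup.IsReduced L := hL.infix ⟨[x], [], by simp⟩
    obtain ⟨c, hc, h⟩ := ih hL' (fun y hy => hK y (List.mem_cons_of_mem _ hy))
    set y := L.headD (K, true) with hy
    have hxK : x.1 < K := hK x List.mem_cons_self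
    have hyK : y.1 ≤ K := by
      cases L with
      | nil => simp [hy]
      | cons z L => simpa [hy] using (hK z (by simp)).le
    have hne : (g' x.1 * g y.1) (j x.2) (j y.2) ≠ 0 := by
      by_cases hxy : x.1 = y.1
      · have h2 : x.2 = y.2 := by
          cases L with
          | nil => simp [hy] at hxy; omega
          | cons z L =>
            have := (FreeGroup.isReduced_cons_cons.mp hL).1
            simp only [hy, List.headD_cons] at hxy ⊢
            exact this hxy
        rw [← hxy, ← h2, hgg]; simp
      · exact hg _ _ hxK.le hyK hxy _ _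
    refine ⟨c * (g' x.1 * g y.1) (j x.2) (j y.2), mul_ne_zero hc hne, ?_⟩
    simp only [List.map_cons, List.prod_cons, List.headD_cons]
    have e1 : g x.1 * single (j x.2) (j x.2) 1 * g' x.1 *
        (List.map (fun x => g x.1 * single (j x.2) (j x.2) 1 * g' x.1) L).prod * g K *
          single (j true) (j true) 1 = g x.1 * single (j x.2) (j x.2) 1 * g' x.1 *
        ((List.map (fun x => g x.1 * single (j x.2) (j x.2) 1 * g' x.1) L).prod * g K *
          single (j true) (j true) 1) := by simp only [Matrix.mul_assoc]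
    rw [e1, h, Matrix.mul_smul, mul_smul]
    congr 1
    have e2 : g x.1 * single (j x.2) (j x.2) 1 * g' x.1 * (g y.1 * single (j y.2) (j true) 1) =
        g x.1 * (single (j x.2) (j x.2) 1 * (g' x.1 * g y.1) * single (j y.2) (j true) 1) := by
      simp only [Matrix.mul_assoc]
    rw [e2, single_mul_mul_single, ← Matrix.mul_smul, smul_single]
    simp

/-- **Ping-pong lemma.** -/
theorem exists_lift_entry_ne_zero [Fintype F] (m : n → ℕ) (D : ℕ) (j : Bool → n)
    (h0 : m (j true) = D) (h0' : ∀ a, a ≠ j true → m a < D)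
    (h1 : m (j false) = 0) (h1' : ∀ a, a ≠ j false → 0 < m a)
    (g : ℕ → GL n F) (K : ℕ)
    (hg : ∀ i k, i ≤ K → k ≤ K → i ≠ k → ∀ a b,
      (((g i)⁻¹ * g k : GL n F) : Matrix n n F) (j a) (j b) ≠ 0)
    (w : FreeGroup ℕ) (hw : w ≠ 1) (hK : ∀ x ∈ w.toWord, x.1 < K)
    (hF : D * w.toWord.length + 1 < Fintype.card F) :
    ∃ t : F, t ≠ 0 ∧ ∀ f : ℕ → GL n F,
      (∀ i, i < K → ∃ c : F, (f i : Matrix n n F) =
        c • ((g i : Matrix n n F) * diagonal (fun a => t ^ m a) * ((g i)⁻¹ : GL n F))) →
      (((g K)⁻¹ * FreeGroup.lift f w * g K : GL n F) : Matrix n n F) (j false) (j true) ≠ 0 := by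
  classical
  have hmD : ∀ a, m a ≤ D := fun a => by
    by_cases h : a = j true
    · rw [h, h0]
    · exact (h0' a h).le
  let e : Bool → n → ℕ := fun b a => if b then m a else D - m a
  let A : ℕ × Bool → Matrix n n F[X] := fun x =>
    (g x.1 : Matrix n n F).map C * diagonal (fun a => (X : F[X]) ^ e x.2 a) *
      (((g x.1)⁻¹ : GL n F) : Matrix n n F).map C
  have heD : ∀ b a, e b a ≤ D := fun b a => by
    cases b
    · simp [e]
    · simp [e, hmD]
  have hA : ∀ x, DegLE (A x) D := fun x => by
    have := ((degLE_C (g x.1 : Matrix n n F)).mul (degLE_diag (e x.2) D (heD _))).mul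
      (degLE_C (((g x.1)⁻¹ : GL n F) : Matrix n n F))
    simpa only [zero_add, add_zero] using this
  have hAt : ∀ x, topc (A x) D = (g x.1 : Matrix n n F) * single (j x.2) (j x.2) 1 *
      (((g x.1)⁻¹ : GL n F) : Matrix n n F) := fun x => by
    have h1a := topc_mul ((degLE_C (g x.1 : Matrix n n F)).mul (degLE_diag (e x.2) D (heD _)))
      (degLE_C (((g x.1)⁻¹ : GL n F) : Matrix n n F))
    have h2a := topc_mul (degLE_C (g x.1 : Matrix n n F)) (degLE_diag (e x.2) D (heD _))
    rw [h2a, topc_C, topc_C, topc_diag (e x.2) D (j x.2)] at h1a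
    · simpa only [zero_add, add_zero] using h1a
    · rcases x with ⟨i, b⟩
      cases b
      · simp [e, h1]
      · simp [e, h0]
    · rcases x with ⟨i, b⟩
      intro a ha
      cases b
      · have := h1' a ha
        have := hmD a
        simp only [e]; simp; omega
      · have := h0' a ha
        simp only [e]; simp; omega
  set L := w.toWord with hLdef
  have hLne : L ≠ [] := fun h => hw (FreeGroup.toWord_eq_nil_iff.mp h)
  obtain ⟨hdeg, htop⟩ := degLE_prod A D hA L
  let P : Matrix n n F[X] := (((g K)⁻¹ : GL n F) : Matrix n n F).map C * (L.map A).prod *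
    (g K : Matrix n n F).map C
  have hPdeg : DegLE P (D * L.length) := by
    have := ((degLE_C (((g K)⁻¹ : GL n F) : Matrix n n F)).mul hdeg).mul
      (degLE_C (g K : Matrix n n F))
    simpa only [zero_add, add_zero] using this
  have hPtop : topc P (D * L.length) = (((g K)⁻¹ : GL n F) : Matrix n n F) *
      (L.map fun x => topc (A x) D).prod * (g K : Matrix n n F) := by
    have h1a := topc_mul ((degLE_C (((g K)⁻¹ : GL n F) : Matrix n n F)).mul hdeg)
      (degLE_C (g K : Matrix n n F))
    have h2a := topc_mul (degLE_C (((g K)⁻¹ : GL n F) : Matrix n n F)) hdeg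
    rw [h2a, topc_C, topc_C, htop] at h1a
    simpa only [zero_add, add_zero] using h1a
  obtain ⟨c, hc, hprod⟩ := prod_proj_mulVec (fun i => (g i : Matrix n n F))
    (fun i => (((g i)⁻¹ : GL n F) : Matrix n n F)) j K (fun i => by simp)
    (fun i k hi hk hik a b => by simpa using hg i k hi hk hik a b) L FreeGroup.isReduced_toWord hK
  have hp : P (j false) (j true) ≠ 0 := by
    intro h0P
    have h3 : topc P (D * L.length) (j false) (j true) = 0 := by simp [topc, h0P]
    rw [hPtop] at h3
    simp only [hAt] at h3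
    have h4 : ((((g K)⁻¹ : GL n F) : Matrix n n F) * ((L.map fun x : ℕ × Bool => (g x.1 : Matrix n n F) *
        single (j x.2) (j x.2) 1 * (((g x.1)⁻¹ : GL n F) : Matrix n n F)).prod *
          (g K : Matrix n n F) * (single (j true) (j true) 1 : Matrix n n F)) : Matrix n n F)
            (j false) (j true) = 0 := by
      rw [← Matrix.mul_assoc, ← Matrix.mul_assoc, mul_single_apply_same, h3, zero_mul]
    rw [hprod, Matrix.mul_smul, ← Matrix.mul_assoc] at h4
    simp only [Matrix.smul_apply, mul_single_apply_same, mul_one, smul_eq_mul, mul_eq_zero, hc,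
      false_or] at h4
    have hy : (L.headD (K, true)).1 < K := by
      cases hL : L with
      | nil => exact absurd hL hLne
      | cons z L' => exact hK z (by rw [hL]; simp)
    exact hg K _ le_rfl hy.le hy.ne' false _ (by simpa using h4)
  -- choose a non-root
  have hex : ∃ t : F, t ≠ 0 ∧ (P (j false) (j true)).eval t ≠ 0 := by
    by_contra hcon
    push Not at hcon
    apply hp
    refine eq_zero_of_natDegree_lt_card_of_eval_eq_zero' _ (Finset.univ.erase 0) ?_ ?_
    · intro t ht; exact hcon t (Finset.ne_of_mem_erase ht)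
    · rw [Finset.card_erase_of_mem (Finset.mem_univ _), Finset.card_univ]
      have := hPdeg (j false) (j true)
      omega
  obtain ⟨t, ht, hpt⟩ := hex
  refine ⟨t, ht, fun f hf => ?_⟩
  let ev : Matrix n n F[X] →+* Matrix n n F := (evalRingHom t).mapMatrix
  have hevC : ∀ B : Matrix n n F, ev (B.map C) = B := fun B => by
    ext a b; simp [ev]
  have hevA : ∀ x, ev (A x) = (g x.1 : Matrix n n F) * diagonal (fun a => t ^ e x.2 a) *
      (((g x.1)⁻¹ : GL n F) : Matrix n n F) := fun x => by
    simp only [A, map_mul, hevC]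
    congr 2
    simp only [ev, RingHom.mapMatrix_apply]
    rw [diagonal_map (by simp)]
    simp
  have hlet : ∀ x : ℕ × Bool, x.1 < K → ∃ c : F, c ≠ 0 ∧
      (((cond x.2 (f x.1) (f x.1)⁻¹ : GL n F)) : Matrix n n F) = c • ev (A x) := by
    rintro ⟨i, b⟩ hi
    obtain ⟨c, hc⟩ := hf i hi
    have hc0 : c ≠ 0 := by
      intro h0c
      rw [h0c, zero_smul] at hc
      have : Nonempty n := ⟨j true⟩
      exact (f i).ne_zero hc
    cases b
    · refine ⟨c⁻¹ * (t ^ D)⁻¹, by simp [hc0, ht], ?_⟩
      simp only [cond_false, hevA, Matrix.coe_units_inv]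
      apply Matrix.inv_eq_right_inv
      rw [hc, Matrix.smul_mul, Matrix.mul_smul, smul_smul]
      have e3 : (g i : Matrix n n F) * diagonal (fun a => t ^ m a) * ((g i)⁻¹ : GL n F) *
          ((g i : Matrix n n F) * diagonal (fun a => t ^ e false a) * (g i : Matrix n n F)⁻¹) =
          (t ^ D) • (1 : Matrix n n F) := by
        have e4 : diagonal (fun a => t ^ m a) * diagonal (fun a => t ^ e false a) =
            (t ^ D) • (1 : Matrix n n F) := by
          rw [diagonal_mul_diagonal, smul_one_eq_diagonal]
          congr 1; ext a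
          rw [← pow_add]; congr 1
          have := hmD a
          simp only [e]; simp; omega
        calc _ = (g i : Matrix n n F) * (diagonal (fun a => t ^ m a) *
            ((((g i)⁻¹ : GL n F) : Matrix n n F) * (g i : Matrix n n F)) *
              diagonal (fun a => t ^ e false a)) * (g i : Matrix n n F)⁻¹ := by
                simp only [Matrix.mul_assoc]
          _ = _ := by
            rw [Units.inv_mul, Matrix.mul_one, e4, Matrix.mul_smul, Matrix.smul_mul, Matrix.mul_one,
              ← Matrix.coe_units_inv, Units.mul_inv]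
      rw [e3, smul_smul]
      have : c * (c⁻¹ * (t ^ D)⁻¹) * t ^ D = 1 := by field_simp
      rw [this, one_smul]
    · exact ⟨c, hc0, by simpa [hevA, e] using hc⟩
  have hlist : ∀ L' : List (ℕ × Bool), (∀ x ∈ L', x.1 < K) → ∃ c : F, c ≠ 0 ∧
      (((L'.map fun x => cond x.2 (f x.1) (f x.1)⁻¹).prod : GL n F) : Matrix n n F) =
        c • ev (L'.map A).prod := by
    intro L' hL'
    induction L' with
    | nil => exact ⟨1, one_ne_zero, by simp⟩
    | cons x L' ih =>
      obtain ⟨c, hc, h⟩ := ih (fun y hy => hL' y (List.mem_cons_of_mem _ hy))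
      obtain ⟨c', hc', h'⟩ := hlet x (hL' x List.mem_cons_self)
      refine ⟨c' * c, mul_ne_zero hc' hc, ?_⟩
      simp only [List.map_cons, List.prod_cons, Units.val_mul, h, h', map_mul, Matrix.smul_mul,
        Matrix.mul_smul, smul_smul]
      rw [mul_comm c c']
  obtain ⟨c', hc', hw'⟩ := hlist L hK
  have hlift : FreeGroup.lift f w = (L.map fun x => cond x.2 (f x.1) (f x.1)⁻¹).prod := by
    conv_lhs => rw [← FreeGroup.mk_toWord (x := w)]
    rw [FreeGroup.lift_mk]
  rw [hlift, Units.val_mul, Units.val_mul, hw', Matrix.mul_smul, Matrix.smul_mul, Matrix.smul_apply,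
    smul_eq_mul]
  refine mul_ne_zero hc' ?_
  have : ev P = (((g K)⁻¹ : GL n F) : Matrix n n F) * ev (L.map A).prod * (g K : Matrix n n F) := by
    simp only [P, map_mul, hevC]
  rw [← this]
  simpa [ev] using hpt

end H63.Law
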