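import Mathlib
import Cfsg.Agent.Lib.Law.PingPong

/-!
Central laws: words all of whose values are central. They pass to subgroups; a non-trivial word
is not a central law of `SL₂(F)` for large finite fields `F`, nor of large alternating groups.
-/

set_option autoImplicit false

namespace H63.Law

open Matrix

/-- every value of the word `w` in `G` is central -/
def IsCLaw (w : FreeGroup ℕ) (G : Type*) [Group G] : Prop :=
  ∀ f : ℕ → G, FreeGroup.lift f w ∈ Subgroup.center G

theorem map_lift {G H : Type*} [Group G] [Group H] (φ : G →* H) (f : ℕ → G) (w : FreeGroup ℕ) :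
    φ (FreeGroup.lift f w) = FreeGroup.lift (fun i => φ (f i)) w := by
  have : φ.comp (FreeGroup.lift f) = FreeGroup.lift (fun i => φ (f i)) := by
    ext i; simp
  exact DFunLike.congr_fun this w

theorem IsCLaw.of_injective {w : FreeGroup ℕ} {K H : Type*} [Group K] [Group H] (h : IsCLaw w H)
    (φ : K →* H) (hφ : Function.Injective φ) : IsCLaw w K := by
  intro f
  rw [Subgroup.mem_center_iff]
  intro x
  apply hφ
  rw [map_mul, map_mul, map_lift]
  exact Subgroup.mem_center_iff.mp (h _) _

theorem isCLaw_of_law {w : FreeGroup ℕ} {G : Type*} [Group G]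
    (h : ∀ f : ℕ → G, FreeGroup.lift f w = 1) : IsCLaw w G := fun f => by
  rw [h f]; exact one_mem _

theorem isCLaw_of_quotient {w : FreeGroup ℕ} {G H : Type*} [Group G] [Group H]
    (e : G ≃* H ⧸ Subgroup.center H) (h : ∀ f : ℕ → G, FreeGroup.lift f w = 1) : IsCLaw w H := by
  intro f
  rw [← QuotientGroup.eq_one_iff]
  apply e.symm.injective
  have := map_lift (e.symm.toMonoidHom.comp (QuotientGroup.mk' (Subgroup.center H))) f w
  rw [h] at this
  simpa using this

/-- A non-trivial word is not a central law of `SL₂(F)` for large `F`. -/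
theorem not_isCLaw_SL_two (w : FreeGroup ℕ) (hw : w ≠ 1) :
    ∃ N : ℕ, ∀ (F : Type*) [Field F] [Fintype F], N ≤ Fintype.card F →
      ¬ IsCLaw w (Matrix.SpecialLinearGroup (Fin 2) F) := by
  classical
  obtain ⟨K, hK⟩ : ∃ K : ℕ, ∀ x ∈ w.toWord, x.1 < K :=
    ⟨(w.toWord.map Prod.fst).sum + 1, fun x hx => Nat.lt_succ_of_le
      (List.single_le_sum (fun _ _ => Nat.zero_le _) _ (List.mem_map_of_mem hx))⟩
  refine ⟨2 * w.toWord.length + 2 + 2 * (K + 1), fun F _ _ hF hlaw => ?_⟩
  obtain ⟨e⟩ : Nonempty (Fin (K + 1) × Bool ↪ F) :=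
    Function.Embedding.nonempty_of_card_le (by simp; omega)
  let ι : ℕ → Fin (K + 1) := fun i => ⟨min i K, by omega⟩
  let a : ℕ → Bool → F := fun i b => e (ι i, b)
  have hab : ∀ i, a i false - a i true ≠ 0 := fun i h => by
    have := e.injective (sub_eq_zero.mp h)
    simp at this
  have hne : ∀ i k, i ≤ K → k ≤ K → i ≠ k → ∀ b c, a i b - a k c ≠ 0 := fun i k hi hk hik b c h => by
    have := e.injective (sub_eq_zero.mp h)
    simp only [ι, Prod.mk.injEq, Fin.mk.injEq] at this
    omega
  obtain ⟨gs, hgs⟩ : ∃ gs : ℕ → Matrix.SpecialLinearGroup (Fin 2) F, ∀ i,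
      (gs i : Matrix (Fin 2) (Fin 2) F) =
        !![1, (a i false - a i true)⁻¹; a i true, a i false * (a i false - a i true)⁻¹] :=
    ⟨fun i => ⟨!![1, (a i false - a i true)⁻¹; a i true, a i false * (a i false - a i true)⁻¹], by
      have := hab i
      rw [det_fin_two_of]; field_simp⟩, fun i => rfl⟩
  let j : Bool → Fin 2 := fun b => if b then 0 else 1
  obtain ⟨t, ht, hmain⟩ := exists_lift_entry_ne_zero (F := F) (n := Fin 2) ![2, 0] 2 j
    (by simp [j]) (by intro a ha; fin_cases a <;> simp [j] at ha ⊢)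
    (by simp [j]) (by intro a ha; fin_cases a <;> simp [j] at ha ⊢)
    (fun i => Matrix.SpecialLinearGroup.toGL (gs i)) K (by
      intro i k hi hk hik b c
      rw [← map_inv, ← map_mul]
      simp only [Matrix.SpecialLinearGroup.coe_GL_coe_matrix, Matrix.SpecialLinearGroup.coe_mul,
        Matrix.SpecialLinearGroup.coe_inv, hgs, adjugate_fin_two_of]
      have h1 := hab i
      have h2 := hab k
      have h3 := hne i k hi hk hik
      have h4 := hne k i hk hi hik.symm
      cases b <;> cases c <;> simp [j, Matrix.mul_apply, Fin.sum_univ_two]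
      · have : -(a i true * (a k false - a k true)⁻¹) + a k false * (a k false - a k true)⁻¹ =
            (a k false - a i true) * (a k false - a k true)⁻¹ := by ring
        rw [this]; exact mul_ne_zero (h4 _ _) (inv_ne_zero h2)
      · have : -a i true + a k true = a k true - a i true := by ring
        rw [this]; exact h4 _ _
      · have : a i false * (a i false - a i true)⁻¹ * (a k false - a k true)⁻¹ +
            -((a i false - a i true)⁻¹ * (a k false * (a k false - a k true)⁻¹)) =
            (a i false - a k false) * ((a i false - a i true)⁻¹ * (a k false - a k true)⁻¹) := by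
          ring
        rw [this]; exact mul_ne_zero (h3 _ _) (mul_ne_zero (inv_ne_zero h1) (inv_ne_zero h2))
      · have : a i false * (a i false - a i true)⁻¹ + -((a i false - a i true)⁻¹ * a k true) =
            (a i false - a k true) * (a i false - a i true)⁻¹ := by ring
        rw [this]; exact mul_ne_zero (h3 _ _) (inv_ne_zero h1))
    w hw hK (by omega)
  obtain ⟨d, hd⟩ : ∃ d : Matrix.SpecialLinearGroup (Fin 2) F,
      (d : Matrix (Fin 2) (Fin 2) F) = diagonal ![t, t⁻¹] := ⟨⟨diagonal ![t, t⁻¹], by simp [ht]⟩, rfl⟩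
  let f : ℕ → Matrix.SpecialLinearGroup (Fin 2) F := fun i => gs i * d * (gs i)⁻¹
  refine hmain (fun i => Matrix.SpecialLinearGroup.toGL (f i)) (fun i _ => ⟨t⁻¹, ?_⟩) ?_
  · rw [← map_inv, ← Matrix.smul_mul, ← Matrix.mul_smul]
    simp only [f, Matrix.SpecialLinearGroup.coe_GL_coe_matrix, Matrix.SpecialLinearGroup.coe_mul, hd]
    congr 2
    rw [← diagonal_smul]
    congr 1
    ext a; fin_cases a
    · simp; field_simp
    · simp
  · rw [← map_lift, ← map_inv, ← map_mul, ← map_mul, mul_assoc,
      ← Subgroup.mem_center_iff.mp (hlaw f) (gs K), ← mul_assoc, inv_mul_cancel, one_mul]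
    obtain ⟨r, -, hr⟩ := Matrix.SpecialLinearGroup.mem_center_iff.mp (hlaw f)
    rw [Matrix.SpecialLinearGroup.coe_GL_coe_matrix, ← hr]
    simp [j]

/-- Every finite group embeds in all large alternating groups. -/
theorem exists_injective_alternating (G : Type*) [Group G] [Finite G] (n : ℕ)
    (hn : 2 * Nat.card G ≤ n) :
    ∃ φ : G →* alternatingGroup (Fin n), Function.Injective φ := by
  classical
  have := Fintype.ofFinite G
  obtain ⟨e⟩ : Nonempty (G ⊕ G ↪ Fin n) :=
    Function.Embedding.nonempty_of_card_le (by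
      rw [Fintype.card_sum, Fintype.card_fin, ← Nat.card_eq_fintype_card]; omega)
  let ψ : G →* Equiv.Perm (G ⊕ G) := (Equiv.Perm.sumCongrHom G G).comp
    ((MulAction.toPermHom G G).prod (MulAction.toPermHom G G))
  let φ : G →* Equiv.Perm (Fin n) :=
    (Equiv.Perm.extendDomainHom (Equiv.ofInjective e e.injective)).comp ψ
  have hφ : Function.Injective φ := by
    refine (Equiv.Perm.extendDomainHom_injective _).comp (Equiv.Perm.sumCongrHom_injective.comp ?_)
    intro x y h
    exact MulAction.toPerm_injective (α := G) (β := G) (congrArg Prod.fst h)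
  refine ⟨φ.codRestrict _ fun g => ?_, fun x y h => hφ (congrArg Subtype.val h)⟩
  rw [Equiv.Perm.mem_alternatingGroup]
  simp [φ, ψ]

theorem not_isCLaw_alternating (w : FreeGroup ℕ) (hw : w ≠ 1) :
    ∃ N : ℕ, ∀ n : ℕ, N ≤ n → ¬ IsCLaw w (alternatingGroup (Fin n)) := by
  obtain ⟨N, hN⟩ := not_isCLaw_SL_two.{0} w hw
  obtain ⟨p, hNp, hp⟩ := Nat.exists_infinite_primes N
  have : Fact p.Prime := ⟨hp⟩
  refine ⟨2 * Nat.card (Matrix.SpecialLinearGroup (Fin 2) (ZMod p)), fun n hn h => ?_⟩
  obtain ⟨φ, hφ⟩ := exists_injective_alternating (Matrix.SpecialLinearGroup (Fin 2) (ZMod p)) n hn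
  exact hN (ZMod p) (by simpa using hNp) (h.of_injective φ hφ)

end H63.Law
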